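import Mathlib
import Cfsg.Agent.Lib.Suzuki.Table

/-!
# More on the character table of the Suzuki groups: values and sums
-/

set_option autoImplicit false
set_option linter.unusedSectionVars false

namespace H14.Sz

open Cfsg MulAction
open scoped ComplexConjugate

variable {G : Type*} [Group G] [Fintype G] {F : Type*} [Field F] [Fintype F] {m : ℕ} [hz : SzF F m]

local notation "θ" => th F
local notation "q" => Fintype.card F

namespace Model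

variable {S : Model G F m}

theorem involution_or_four {x : G} (hx : x ∈ S.U) (h1 : x ≠ 1) : x * x = 1 ∨ orderOf x = 4 := by
  obtain ⟨a, b, rfl⟩ := hx
  by_cases ha : a = 0
  · exact Or.inl (S.u_sq_eq_one_iff.2 ha)
  · exact Or.inr (S.orderOf_u ha b)

variable (S) in
open Classical in
/-- The irreducible characters other than `1`, `St`, `W`, `W̄`. -/
noncomputable def rest (W : G → ℂ) : Finset (IrrCharacter G) :=
  Finset.univ.filter fun χ => χ.1 ≠ (fun _ => 1) ∧ χ.1 ≠ S.St ∧ χ.1 ≠ W ∧ χ.1 ≠ bar W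

theorem sum_split {W : G → ℂ} (hW : IsIrrCharacter G W) (hne : bar W ≠ W) {M : Type*}
    [AddCommMonoid M] (f : (G → ℂ) → M) :
    ∑ χ : IrrCharacter G, f χ =
      f (fun _ => 1) + f S.St + f W + f (bar W) + ∑ χ ∈ S.rest W, f χ := by
  classical
  have hc := cusp_of_nonreal (S := S) hW hne
  have hc' := cusp_of_nonreal (S := S) (bar_irr hW) (by rw [bar_bar]; exact hne.symm)
  rw [← Finset.sum_filter_not_add_sum_filter _
    (fun χ : IrrCharacter G => χ.1 ≠ (fun _ => 1) ∧ χ.1 ≠ S.St ∧ χ.1 ≠ W ∧ χ.1 ≠ bar W)]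
  congr 1
  · have : Finset.univ.filter (fun χ : IrrCharacter G =>
        ¬ (χ.1 ≠ (fun _ => 1) ∧ χ.1 ≠ S.St ∧ χ.1 ≠ W ∧ χ.1 ≠ bar W)) =
        {⟨_, H6.isIrrCharacter_one⟩, ⟨_, S.St_irr⟩, ⟨W, hW⟩, ⟨_, bar_irr hW⟩} := by
      ext χ
      simp only [Finset.mem_filter, Finset.mem_univ, true_and, Finset.mem_insert,
        Finset.mem_singleton, Subtype.ext_iff]
      tauto
    rw [this, Finset.sum_insert (by
        simp [Subtype.ext_iff, S.St_ne_one.symm, hc.2.1.symm, hc'.2.1.symm]),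
      Finset.sum_insert (by simp [Subtype.ext_iff, hc.2.2.1.symm, hc'.2.2.1.symm]),
      Finset.sum_pair (by simp [Subtype.ext_iff, hne.symm])]
    simp only [add_assoc]

namespace ToriPair

variable {A₁ A₂ : Subgroup G} (hT : S.ToriPair A₁ A₂)
include hT

theorem exists_conj_mem (g : G) :
    ∃ y, IsConj g y ∧ (y ∈ S.U ∨ y ∈ S.H ∨ y ∈ A₁ ∨ y ∈ A₂) := by
  have key : ∀ x : G, IsConj g (x⁻¹ * g * x) := fun x => isConj_iff.2 ⟨x⁻¹, by rw [inv_inv]⟩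
  rcases S.trichotomy g with ⟨x, hx⟩ | ⟨x, hx⟩ | h
  · exact ⟨_, key x, Or.inl (S.mem_conj_U.1 hx)⟩
  · exact ⟨_, key x, Or.inr (Or.inl (S.mem_conj_H.1 hx))⟩
  · have hA := Free.isTorus h
    have hg : g ∈ Subgroup.centralizer {g} := Subgroup.mem_centralizer_singleton_iff.2 rfl
    rcases hA.card_cases with c | c
    · obtain ⟨x, hx⟩ := hT.t1.conj_of_card_eq hA (hT.c1.trans c.symm)
      exact ⟨_, key x, Or.inr (Or.inr (Or.inl (mem_map_conj.1 (hx ▸ hg))))⟩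
    · obtain ⟨x, hx⟩ := hT.t2.conj_of_card_eq hA (hT.c2.trans c.symm)
      exact ⟨_, key x, Or.inr (Or.inr (Or.inr (mem_map_conj.1 (hx ▸ hg))))⟩

variable {W : G → ℂ} (hW : IsIrrCharacter G W) (hne : bar W ≠ W)
include hW hne

theorem rest_cases {χ : IrrCharacter G} (hχ : χ ∈ S.rest W) :
    (∃ μ : S.H →* ℂˣ, μ ≠ 1 ∧ χ.1 = S.chiH μ) ∨
      (∃ μ : A₁ →* ℂˣ, μ ≠ 1 ∧ χ.1 = S.chi1 W A₁ μ) ∨
      ∃ μ : A₂ →* ℂˣ, μ ≠ 1 ∧ χ.1 = S.chi2 W A₂ μ := by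
  classical
  obtain ⟨-, a1, a2, a3, a4⟩ := Finset.mem_filter.1 hχ
  exact (((hT.irr_cases hW hne χ.2).resolve_left a1).resolve_left a2 |>.resolve_left
    a3).resolve_left a4

theorem W_H {x : G} (hx : x ∈ S.H) (h1 : x ≠ 1) : W x = 0 := (cusp_of_nonreal hW hne).val_H hx h1

theorem conj_chi1 (μ : A₁ →* ℂˣ) (g : G) : conj (S.chi1 W A₁ μ g) = S.chi1 W A₁ μ g := by
  rw [chi1_apply, map_sub, ← bar_apply, hT.t1.bar_psi, map_add, Complex.conj_conj, add_comm]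

theorem conj_chi2 (μ : A₂ →* ℂˣ) (g : G) : conj (S.chi2 W A₂ μ g) = S.chi2 W A₂ μ g := by
  rw [chi2_apply, map_add, ← bar_apply, hT.t2.bar_psi, map_add, Complex.conj_conj, add_comm (W g)]

theorem conj_rest {χ : IrrCharacter G} (hχ : χ ∈ S.rest W) (g : G) : conj (χ.1 g) = χ.1 g := by
  rcases hT.rest_cases hW hne hχ with ⟨μ, -, h⟩ | ⟨μ, -, h⟩ | ⟨μ, -, h⟩ <;> rw [h]
  · exact S.conj_chiH μ g
  · exact hT.conj_chi1 hW hne μ g
  · exact hT.conj_chi2 hW hne μ g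

theorem chi1_involution (μ : A₁ →* ℂˣ) {x : G} (hx : x ∈ S.U) (h1 : x ≠ 1) (h2 : x * x = 1) :
    S.chi1 W A₁ μ x = 2 * 2 ^ m - 1 := by
  rw [chi1_apply, hT.t1.psi_U μ hx h1, hT.W_involution hW hne h2 h1]
  simp only [map_neg, map_pow, map_ofNat]; ring

theorem chi2_involution (μ : A₂ →* ℂˣ) {x : G} (hx : x ∈ S.U) (h1 : x ≠ 1) (h2 : x * x = 1) :
    S.chi2 W A₂ μ x = -(2 * 2 ^ m + 1) := by
  rw [chi2_apply, hT.t2.psi_U μ hx h1, hT.W_involution hW hne h2 h1]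
  simp only [map_neg, map_pow, map_ofNat]; ring

theorem chi1_four (μ : A₁ →* ℂˣ) {x : G} (hx : x ∈ S.U) (h1 : x ≠ 1) (h4 : orderOf x = 4) :
    S.chi1 W A₁ μ x = -1 := by
  rw [chi1_apply, hT.t1.psi_U μ hx h1, hT.W_four_add hW hne h4, sub_zero]

theorem chi2_four (μ : A₂ →* ℂˣ) {x : G} (hx : x ∈ S.U) (h1 : x ≠ 1) (h4 : orderOf x = 4) :
    S.chi2 W A₂ μ x = -1 := by
  rw [chi2_apply, hT.t2.psi_U μ hx h1, hT.W_four_add hW hne h4, add_zero]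

theorem chi1_H (μ : A₁ →* ℂˣ) {x : G} (hx : x ∈ S.H) (h1 : x ≠ 1) : S.chi1 W A₁ μ x = 0 := by
  rw [chi1_apply, hT.t1.psi_H μ hx h1, hT.W_H hW hne hx h1]; simp

theorem chi2_H (μ : A₂ →* ℂˣ) {x : G} (hx : x ∈ S.H) (h1 : x ≠ 1) : S.chi2 W A₂ μ x = 0 := by
  rw [chi2_apply, hT.t2.psi_H μ hx h1, hT.W_H hW hne hx h1]; simp

theorem chi1_A₂ (μ : A₁ →* ℂˣ) {x : G} (hx : x ∈ A₂) (h1 : x ≠ 1) : S.chi1 W A₁ μ x = 0 := by
  rw [chi1_apply, psi_apply, theta_of_coprime_card hT.coprime.symm μ hx,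
    S.St_free (hT.t2.free hx h1), hT.W_A₂ hW hne hx h1]
  simp only [map_neg, map_one]; ring

theorem chi2_A₁ (μ : A₂ →* ℂˣ) {x : G} (hx : x ∈ A₁) (h1 : x ≠ 1) : S.chi2 W A₂ μ x = 0 := by
  rw [chi2_apply, psi_apply, theta_of_coprime_card hT.coprime μ hx,
    S.St_free (hT.t1.free hx h1), hT.W_A₁ hW hne hx h1]
  simp only [map_one]; ring

theorem norm_chi1_A₁ (μ : A₁ →* ℂˣ) {x : G} (hx : x ∈ A₁) (h1 : x ≠ 1) :
    ‖S.chi1 W A₁ μ x‖ ≤ 4 := by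
  have := hT.t1.selfCent.norm_theta_sub_le hT.t1.card_normalizer μ hx
  rw [chi1_apply, psi_apply, S.St_free (hT.t1.free hx h1), hT.W_A₁ hW hne hx h1, map_one]
  convert this using 2 <;> push_cast <;> ring

theorem norm_chi2_A₂ (μ : A₂ →* ℂˣ) {x : G} (hx : x ∈ A₂) (h1 : x ≠ 1) :
    ‖S.chi2 W A₂ μ x‖ ≤ 4 := by
  have := hT.t2.selfCent.norm_theta_sub_le hT.t2.card_normalizer μ hx
  rw [chi2_apply, psi_apply, S.St_free (hT.t2.free hx h1), hT.W_A₂ hW hne hx h1, map_neg, map_one]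
  convert this using 2 <;> push_cast <;> ring

end ToriPair

end Model

end H14.Sz
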